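import Cfsg.Agent.H217.Odm.Eng
import Cfsg.Agent.H215.CC.LyThirtySeven
import Cfsg.Agent.H655.LySixtySeven

/-!
# TEAM ODDM (S4785), the row of the Lyons group (helper87)

The elements of orders 67 and 37 are self-centralizing and real.
-/

set_option autoImplicit false

namespace Cfsg.Agent.H87.OdmRowLy

open Subgroup
open Cfsg.Agent.H453.OddM
open Cfsg.Agent.H217.Odm

universe u

theorem row (tab : Cfsg.Agent.OrdDiv.OrderTable.{u}) (known : Cfsg.Agent.H257.El.Known.{u}) {T : Type u} [Group T]
    (h : Cfsg.Spor.IsoLy T) : Cfsg.Agent.H453.OddM.Row T := by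
  have hcard : Nat.card T = 51765179004000000 := NotCT.Orders.ly h
  have hfin : Finite T := Nat.finite_of_card_ne_zero (by rw [hcard]; norm_num)
  have h67 : Nat.Prime 67 := by norm_num
  have h37 : Nat.Prime 37 := by norm_num
  have c67 : ∀ x : T, orderOf x = 67 → Nat.card (centralizer ({x} : Set T)) = 67 := fun x hx =>
    H655.LySixtySeven.card_centralizer known h hx
  have c37 : ∀ x : T, orderOf x = 37 → Nat.card (centralizer ({x} : Set T)) = 37 := fun x hx =>
    H215.CC.LyThirtySeven.card_centralizer known h hx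
  have r67 : RealP T 67 := by
    have hf : Fact (Nat.Prime 67) := ⟨h67⟩
    obtain ⟨x, hx⟩ := exists_prime_orderOf_dvd_card' (G := T) 67 (by rw [hcard]; norm_num)
    exact ⟨x, hx, (norm_of_cent (r := 67) (n := 772614612000000) (c := 1) (e := 22) h67 (by rw [hcard]) (by norm_num) hx
      (by rw [c67 x hx]) (by norm_num) (by norm_num)).2 (by decide)⟩
  have r37 : RealP T 37 := by
    have hf : Fact (Nat.Prime 37) := ⟨h37⟩
    obtain ⟨x, hx⟩ := exists_prime_orderOf_dvd_card' (G := T) 37 (by rw [hcard]; norm_num)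
    exact ⟨x, hx, (norm_of_cent (r := 37) (n := 1399058892000000) (c := 1) (e := 18) h37 (by rw [hcard]) (by norm_num) hx
      (by rw [c37 x hx]) (by norm_num) (by norm_num)).2 (by decide)⟩
  refine row_of_empty (n := 51765179004000000)
    (l := [(2, 8), (3, 7), (5, 6), (7, 1), (11, 1), (31, 1), (37, 1), (67, 1)]) (r := 67) (ss := [37]) tab known hcard h67
    r67 ?_ (by decide +kernel)
  intro s hs
  rw [List.mem_singleton] at hs
  subst hs
  refine ⟨h37, r37, fun z hz => ?_⟩
  have h1 : orderOf (z ^ 37) = 67 := by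
    rw [orderOf_pow, hz]
    norm_num
  have h2 := c67 _ h1
  have h3 : z ∈ centralizer ({z ^ 37} : Set T) := by
    rw [mem_centralizer_singleton_iff]
    exact ((Commute.refl z).pow_right 37).eq
  have h4 := Subgroup.orderOf_dvd_natCard _ h3
  rw [h2, hz] at h4
  exact absurd h4 (by norm_num)

end Cfsg.Agent.H87.OdmRowLy
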